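import Cfsg.Agent.Base
import Cfsg.Agent.Lib.H4.ClassTwo

/-! The normal complement theorem for a class two Sylow 2-subgroup with odd operators. -/

set_option autoImplicit false

open Cfsg Subgroup

open scoped commutatorElement Pointwise

namespace H4

variable {G : Type*} [Group G]

theorem commutator_mul_left_of_classTwo {S : Subgroup G}
    (hcl : ∀ x ∈ S, ∀ y ∈ S, ∀ z ∈ S, ⁅x, y⁆ * z = z * ⁅x, y⁆) {x y u : G} (hx : x ∈ S)
    (hy : y ∈ S) (hu : u ∈ S) : ⁅x * y, u⁆ = ⁅y, u⁆ * ⁅x, u⁆ := by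
  calc ⁅x * y, u⁆ = x * ⁅y, u⁆ * x⁻¹ * ⁅x, u⁆ := by simp only [commutatorElement_def]; group
    _ = _ := by rw [← hcl y hy u hu x hx]; group

theorem commutator_mul_right_of_classTwo {S : Subgroup G}
    (hcl : ∀ x ∈ S, ∀ y ∈ S, ∀ z ∈ S, ⁅x, y⁆ * z = z * ⁅x, y⁆) {x u v : G} (hx : x ∈ S)
    (hu : u ∈ S) (hv : v ∈ S) : ⁅x, u * v⁆ = ⁅x, u⁆ * ⁅x, v⁆ := by
  calc ⁅x, u * v⁆ = ⁅x, u⁆ * (u * ⁅x, v⁆ * u⁻¹) := by simp only [commutatorElement_def]; group
    _ = _ := by rw [← hcl x hx v hv u hu]; group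

theorem exists_commutator_value_of_classTwo {S E : Subgroup G}
    (hcl : ∀ x ∈ S, ∀ y ∈ S, ∀ z ∈ S, ⁅x, y⁆ * z = z * ⁅x, y⁆)
    (idx : ∀ x ∈ S, ∀ y ∈ S, x ∉ E → y ∉ E → x * y ∈ E) {u : G} (hu : u ∈ S)
    (huE : ∀ e ∈ E, u * e = e * u) (hnc : ¬ ∀ s ∈ S, u * s = s * u) :
    ∃ z ∈ S, z ≠ 1 ∧ z * z = 1 ∧ (∀ s ∈ S, z * s = s * z) ∧ (∀ x ∈ E, ⁅x, u⁆ = 1) ∧
      ∀ x ∈ S, x ∉ E → ⁅x, u⁆ = z := by
  push Not at hnc
  obtain ⟨s, hs, hsu⟩ := hnc
  have h0 : ∀ x ∈ E, ⁅x, u⁆ = 1 := fun x hx =>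
    commutatorElement_eq_one_iff_mul_comm.2 (huE x hx).symm
  have hsE : s ∉ E := fun h => hsu (huE s h)
  have h1 : ∀ x ∈ S, x ∉ E → ⁅s, u⁆ * ⁅x, u⁆ = 1 := fun x hx hxE => by
    rw [← commutator_mul_left_of_classTwo hcl hx hs hu]
    exact h0 _ (idx x hx s hs hxE hsE)
  refine ⟨⁅s, u⁆, ?_, fun h => hsu (commutatorElement_eq_one_iff_mul_comm.1 h).symm,
    h1 s hs hsE, hcl s hs u hu, h0, fun x hx hxE => ?_⟩
  · rw [commutatorElement_def]
    exact mul_mem (mul_mem (mul_mem hs hu) (inv_mem hs)) (inv_mem hu)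
  · exact mul_left_cancel ((h1 x hx hxE).trans (h1 s hs hsE).symm)

variable {A : Type*} [Group A]

theorem aut_inv_apply (φ : A →* MulAut G) (a : A) (x : G) : φ a⁻¹ (φ a x) = x := by
  rw [← MulAut.mul_apply, ← map_mul, inv_mul_cancel, map_one, MulAut.one_apply]

theorem aut_apply_inv (φ : A →* MulAut G) (a : A) (x : G) : φ a (φ a⁻¹ x) = x := by
  rw [← MulAut.mul_apply, ← map_mul, mul_inv_cancel, map_one, MulAut.one_apply]

theorem ClassTwoLocal.false_of_operators [Finite G] [Finite A] {S D W : Subgroup G}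
    (h : ClassTwoLocal S D W) (hcl : ∀ x ∈ S, ∀ y ∈ S, ∀ z ∈ S, ⁅x, y⁆ * z = z * ⁅x, y⁆)
    (φ : A →* MulAut G) (hA : Odd (Nat.card A)) (hSA : ∀ a, ∀ x ∈ S, φ a x ∈ S)
    (hN : ∀ X : Subgroup G, X ≠ ⊥ → X ≤ S → S ≤ normalizer (X : Set G) →
      (∀ a, ∀ x ∈ X, φ a x ∈ X) → normalizer (X : Set G) ≤ S) : False := by
  have hWS : W ≤ S := h.W_le.trans h.D_le
  by_cases hall : ∀ a, ∀ w ∈ W, φ a w ∈ D
  · let X : Subgroup G := closure {x | ∃ a, ∃ w ∈ W, x = φ a w}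
    have hX : ∀ K : Subgroup G, (∀ a, ∀ w ∈ W, φ a w ∈ K) → X ≤ K := fun K hK =>
      (closure_le _).2 (by rintro _ ⟨a, w, hw, rfl⟩; exact hK a w hw)
    have hmem : ∀ a, ∀ w ∈ W, φ a w ∈ X := fun a w hw => subset_closure ⟨a, w, hw, rfl⟩
    have hWX : W ≤ X := fun w hw => by simpa using hmem 1 w hw
    have hSX : S ≤ normalizer (X : Set G) := by
      intro s hs
      refine mem_normalizer_of_forall fun x hx => ?_
      have := hX (X.comap (MulAut.conj s).toMonoidHom) (fun a w hw => ?_) hx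
      · simpa using this
      · have h1 := hmem a _ ((mem_normalizer_iff.1 (h.W_norm (hSA a⁻¹ s hs)) w).1 hw)
        rw [map_mul, map_mul, map_inv (φ a), aut_apply_inv] at h1
        simpa using h1
    refine h.normX X hWX (hX D hall) hSX (hN X (fun hb => h.D_ne ?_) ((hX D hall).trans h.D_le)
      hSX fun b x hx => ?_)
    · refine le_antisymm h.D_le fun x hx => h.cent_W x hx fun w hw => ?_
      have : w = 1 := by simpa [hb] using hWX hw
      simp [this]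
    · refine hX (X.comap (φ b).toMonoidHom) (fun a w hw => ?_) hx
      have h1 := hmem (b * a) w hw
      rw [map_mul, MulAut.mul_apply] at h1
      exact h1
  push Not at hall
  obtain ⟨a, w₁, hw₁, huD⟩ := hall
  -- the two partners of `D`
  have part : ∀ b : A, ∀ w ∈ W, φ b w ∉ D → ∃ z ∈ S, z ≠ 1 ∧ z * z = 1 ∧
      (∀ s ∈ S, z * s = s * z) ∧ (∀ x, φ b⁻¹ x ∈ D → ⁅x, φ b w⁆ = 1) ∧
      ∀ x ∈ S, φ b⁻¹ x ∉ D → ⁅x, φ b w⁆ = z := by
    intro b w hw hb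
    refine exists_commutator_value_of_classTwo (E := D.comap (φ b⁻¹).toMonoidHom) hcl
      (fun x hx y hy hxE hyE => ?_) (hSA b w (hWS hw)) (fun e he => ?_)
      fun hc => hb (h.Z_le _ (hSA b w (hWS hw)) hc)
    · have := h.idx _ (hSA b⁻¹ x hx) _ (hSA b⁻¹ y hy) hxE hyE
      rwa [← map_mul] at this
    · have := congrArg (φ b) (h.W_cent w hw _ he)
      simp only [map_mul] at this
      erw [aut_apply_inv] at this
      exact this
  obtain ⟨z, hzS, hz1, hz2, hzc, hE0, hE1⟩ := part a w₁ hw₁ huD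
  have huS := hSA a w₁ (hWS hw₁)
  obtain ⟨w₀, hw₀, hu'D⟩ : ∃ w ∈ W, φ a⁻¹ w ∉ D := by
    by_contra hc
    push Not at hc
    exact huD (h.cent_W _ huS fun w hw =>
      (commutatorElement_eq_one_iff_mul_comm.1 (hE0 w (hc w hw))).symm)
  obtain ⟨z', -, hz1', -, -, hF0, hF1⟩ := part a⁻¹ w₀ hw₀ hu'D
  rw [inv_inv] at hF0 hF1
  have hu'S := hSA a⁻¹ w₀ (hWS hw₀)
  set u := φ a w₁ with hu
  set u' := φ a⁻¹ w₀ with hu'
  have hd : u * u' ∈ D := h.idx u huS u' hu'S huD hu'D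
  have hzz : z' = z := by
    have h1 : ⁅w₀, u * u'⁆ = 1 := commutatorElement_eq_one_iff_mul_comm.2 (h.W_cent w₀ hw₀ _ hd)
    rw [commutator_mul_right_of_classTwo hcl (hWS hw₀) huS hu'S, hE1 w₀ (hWS hw₀) hu'D] at h1
    have h2 : ⁅w₀, u'⁆ = z := mul_left_cancel (h1.trans hz2.symm)
    by_cases h3 : φ a w₀ ∈ D
    · exact absurd (h2.symm.trans (hF0 _ h3)) hz1
    · exact (hF1 _ (hWS hw₀) h3).symm.trans h2
  subst hzz
  have hEx : ∀ x ∈ S, ⁅x, u⁆ = 1 ∨ ⁅x, u⁆ = z' := fun x hx => by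
    by_cases h3 : φ a⁻¹ x ∈ D
    · exact Or.inl (hE0 x h3)
    · exact Or.inr (hE1 x hx h3)
  have hFx : ∀ x ∈ S, ⁅x, u'⁆ = 1 ∨ ⁅x, u'⁆ = z' := fun x hx => by
    by_cases h3 : φ a x ∈ D
    · exact Or.inl (hF0 x h3)
    · exact Or.inr (hF1 x hx h3)
  obtain ⟨k1, k2, k3⟩ := h.key u huS huD z' hzS hz1 hz2 hzc hEx
  have hdD : ∀ x ∈ D, ⁅x, u * u'⁆ = 1 := by
    intro x hx
    have h1 := k2 x hx _ hd
    rw [commutator_mul_right_of_classTwo hcl (h.D_le hx) huS hu'S] at h1 ⊢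
    rcases hEx x (h.D_le hx) with e1 | e1 <;> rcases hFx x (h.D_le hx) with e2 | e2 <;>
      simp_all
  have hu2 : u * u = 1 := by rw [hu, ← map_mul, k1 w₁ hw₁, map_one]
  have hu'2 : u' * u' = 1 := by rw [hu', ← map_mul, k1 w₀ hw₀, map_one]
  have huu : ⁅u, u'⁆ = 1 := by
    rcases hFx u huS with e | e
    · exact e
    · refine absurd ?_ (k3 _ hd fun x hx =>
        (commutatorElement_eq_one_iff_mul_comm.1 (hdD x hx)).symm)
      rw [← e, commutatorElement_def, inv_eq_of_mul_eq_one_right hu2,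
        inv_eq_of_mul_eq_one_right hu'2]
      group
  have hdS : ∀ x ∈ S, ⁅x, u * u'⁆ = 1 := by
    intro x hx
    by_cases hxD : x ∈ D
    · exact hdD x hxD
    · have h1 := hdD _ (h.idx x hx u huS hxD huD)
      rwa [commutator_mul_left_of_classTwo hcl hx huS (mul_mem huS hu'S),
        commutator_mul_right_of_classTwo hcl huS huS hu'S, huu, commutatorElement_self,
        one_mul, one_mul] at h1
  have hsq : ∀ y ∈ D, φ (a * a) y ∈ D := by
    intro y hy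
    have hx := hSA a y (h.D_le hy)
    have h1 := hdS _ hx
    rw [commutator_mul_right_of_classTwo hcl hx huS hu'S,
      hE0 _ (by rwa [aut_inv_apply]), one_mul] at h1
    rw [map_mul, MulAut.mul_apply]
    by_contra h2
    exact hz1 ((hF1 _ hx h2).symm.trans h1)
  have hpow : ∀ n : ℕ, ∀ y ∈ D, φ ((a * a) ^ n) y ∈ D := by
    intro n
    induction n with
    | zero => intro y hy; simpa using hy
    | succ n ih =>
      intro y hy
      rw [pow_succ, map_mul, MulAut.mul_apply]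
      exact ih _ (hsq y hy)
  obtain ⟨m, hm⟩ := hA
  have h1 : (a * a) ^ (m + 1) = a := by
    rw [← pow_two, ← pow_mul, show 2 * (m + 1) = (2 * m + 1) + 1 by ring, ← hm, pow_succ,
      pow_card_eq_one', one_mul]
  exact huD (by rw [hu, ← h1]; exact hpow _ _ (h.W_le hw₁))

theorem hasNormalPComplement_of_classTwo_operators [Finite G] [Finite A] (S : Sylow 2 G)
    (hcl : ∀ x ∈ S, ∀ y ∈ S, ∀ z ∈ S, ⁅x, y⁆ * z = z * ⁅x, y⁆)
    (φ : A →* MulAut G) (hA : Odd (Nat.card A)) (hSA : ∀ a, ∀ x ∈ S, φ a x ∈ S)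
    (hN : ∀ X : Subgroup G, X ≠ ⊥ → X ≤ S → (S : Subgroup G) ≤ normalizer (X : Set G) →
      (∀ a, ∀ x ∈ X, φ a x ∈ X) → normalizer (X : Set G) ≤ S) : HasNormalPComplement 2 G := by
  by_contra hnpc
  have hS1 : (S : Subgroup G) ≠ ⊥ := by
    intro h
    apply hnpc
    rw [hasNormalPComplement_iff_inf_eq_bot S, h, inf_bot_eq]
  have hZ1 : ((S : Subgroup G) ⊓ centralizer (S : Set G) : Subgroup G) ≠ ⊥ := by
    haveI : Nontrivial S := (Subgroup.nontrivial_iff_ne_bot _).2 hS1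
    haveI := S.isPGroup'.center_nontrivial
    obtain ⟨c, hc⟩ := exists_ne (1 : center S)
    intro hb
    have h1 : ((c : S) : G) ∈ ((S : Subgroup G) ⊓ centralizer (S : Set G) : Subgroup G) :=
      ⟨c.1.2, fun s hs => congrArg Subtype.val (mem_center_iff.1 c.2 ⟨s, hs⟩)⟩
    rw [hb, mem_bot] at h1
    exact hc (Subtype.ext (Subtype.ext h1))
  obtain ⟨D, W, h⟩ := exists_classTwoLocal S hcl (hN S hS1 le_rfl le_normalizer hSA)
    (hN _ hZ1 inf_le_left (fun s hs => mem_normalizer_of_forall fun x hx => by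
      rw [hx.2 s hs]; simpa using hx) fun a x hx => ⟨hSA a x hx.1, fun s hs => by
        have := congrArg (φ a) (hx.2 _ (hSA a⁻¹ s hs))
        simpa only [map_mul, aut_apply_inv] using this⟩) hnpc
  exact h.false_of_operators hcl φ hA hSA hN

end H4
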