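import Mathlib
import Cfsg.Agent.Base
import Cfsg.Agent.Lib.Suzuki.Classes
import Cfsg.Agent.Lib.Suzuki.Subgroups
import Cfsg.Agent.Lib.Suzuki.Sylow

/-! Maximality of torus normalizers in Suzuki groups; order recognition (helper4). -/

set_option autoImplicit false

namespace H4

open Subgroup H14.Sz

variable {G : Type*} [Group G] {F : Type*} [Field F] [Fintype F] {m : ℕ} [hz : SzF F m]

theorem two_adic {a b u v : ℕ} (hu : Odd u) (hv : Odd v) (h : 2 ^ a * u = 2 ^ b * v) : a = b := by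
  have key : ∀ {a b u v : ℕ}, Odd v → 2 ^ a * u = 2 ^ b * v → a ≤ b := fun {a b u v} hv h =>
    (Nat.pow_dvd_pow_iff_le_right one_lt_two).1 (Nat.Coprime.dvd_of_dvd_mul_right
      (Nat.Coprime.pow_left a (Nat.coprime_two_left.2 hv)) ⟨u, h.symm⟩)
  exact le_antisymm (key hv h) (key hu h.symm)

theorem sz_card' (S : Model G F m) : Nat.card G = 2 ^ (4 * m + 2) *
    ((Fintype.card F ^ 2 + 1) * (Fintype.card F - 1)) := by
  rw [S.card_G, mul_assoc]
  congr 1
  rw [hz.hF, ← pow_mul]; congr 1; ring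

variable (F) in
include hz in
theorem sz_odd : Odd ((Fintype.card F ^ 2 + 1) * (Fintype.card F - 1)) :=
  (odd_q_sq_add_one F).mul (odd_q_sub_one F)

theorem sz_equiv {G' : Type*} [Group G'] {K : Type*} [Field K] [Fintype K] [SzF K m]
    (S : Model G F m) (S' : Model G' K m) : Nonempty (G' ≃* G) := by
  obtain ⟨φ⟩ := exists_ringHom (card_eq (F := K)) (card_eq (F := F)) dvd_rfl
  haveI := S.finite
  exact ⟨MulEquiv.ofBijective (S.embed S' φ) ((S.embed_injective S' φ).bijective_of_nat_card_le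
    (by rw [S.card_G, S'.card_G, card_eq (F := K), card_eq (F := F)]))⟩

theorem le_normalizer_of_torus_le (S : Model G F m) {A M : Subgroup G} (hA : S.IsTorus A)
    (hAM : A ≤ M) (hM : M ≠ ⊤) : M ≤ normalizer (A : Set G) := by
  haveI := S.finite
  obtain ⟨⟨a, ha⟩, ha1⟩ := ne_bot_iff_exists_ne_one.1 hA.ne_bot
  replace ha1 : a ≠ 1 := fun e => ha1 (Subtype.ext e)
  have hf := hA.free ha ha1
  rcases S.subgroup_classification M with ⟨x, hx⟩ | ⟨x, hx⟩ | ⟨A', hA', hx⟩ | ⟨x, F₀, h1, rfl⟩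
  · exact absurd (hx (hAM ha)) (hf.not_mem_conj_B x)
  · exact absurd ((S.conj x).H_le_B ((S.conj x).selfCent_H.mem_of_odd (S.conj x).card_normalizer_H'
      (hx (hAM ha)) hf.odd_orderOf)) (hf.not_mem_conj_B x)
  · rwa [hA.eq_of_mem hA' ha (hA'.selfCent.mem_of_odd hA'.card_normalizer' (hx (hAM ha))
      hf.odd_orderOf) ha1]
  exfalso
  obtain ⟨k, hk1, ⟨t, ht⟩, hk3⟩ := subfield_card' F₀ h1
  have h2 := card_dvd_of_le hAM
  rw [(S.conj x).card_subGrp h1, hk3] at h2
  have hq : Fintype.card F = (2 ^ (2 * k + 1)) ^ t := by rw [hz.hF, ht, pow_mul]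
  have h3 : (Nat.card A).Coprime (2 ^ (2 * k + 1) - 1) :=
    ((coprime_q_sq_add_one_sub_one F).coprime_dvd_left hA.card_dvd).coprime_dvd_right
      (hq ▸ Nat.sub_one_dvd_pow_sub_one _ t)
  have h4 : (Nat.card A).Coprime ((2 ^ (2 * k + 1)) ^ 2) :=
    ((Nat.coprime_two_right.2 hA.odd_card).pow_right _).pow_right _
  have h5 := Nat.le_of_dvd (by positivity) (h4.dvd_of_dvd_mul_left (h3.dvd_of_dvd_mul_right h2))
  have ht1 : t ≠ 1 := by
    rintro rfl
    refine hM ?_
    rw [subfield_eq_of_card_eq (F₀ := F₀) (F₁ := ⊤) (by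
      rw [hk3, ← pow_one (2 ^ (2 * k + 1)), ← hq, ← Nat.card_eq_fintype_card]
      exact (Nat.card_congr Subfield.topEquiv.toEquiv).symm)]
    exact (S.conj x).subGrp_top
  have ht3 : 3 ≤ t := by
    rcases t with _ | _ | _ | t <;> omega
  have h8 : 8 ≤ 2 ^ (2 * k + 1) := by
    calc 8 = 2 ^ 3 := rfl
      _ ≤ _ := Nat.pow_le_pow_right (by omega) (by omega)
  have h6 : (2 ^ (2 * k + 1)) ^ 3 ≤ Fintype.card F := hq ▸ Nat.pow_le_pow_right (by omega) ht3
  have h7 := Model.r_sq (F := F)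
  have h9 := Model.r_le_q (F := F)
  have h10 := eight_le_card (F := F)
  generalize 2 ^ (2 * k + 1) = s at *
  have h11 : 8 * s ^ 2 ≤ Fintype.card F := by nlinarith
  have h12 : 2 * 2 ^ (m + 1) ≤ Fintype.card F := by nlinarith
  rcases hA.card_cases with h | h <;> omega

theorem isCoatom_normalizer_torus (S : Model G F m) {A : Subgroup G} (hA : S.IsTorus A) :
    IsCoatom (normalizer (A : Set G)) := by
  refine ⟨fun e => S.not_isSolvable ?_, fun M hM => ?_⟩
  · haveI := hA.isSolvable_normalizer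
    exact Group.isSolvable_of_surjective (f := (normalizer (A : Set G)).subtype)
      fun x => ⟨⟨x, e.ge (mem_top x)⟩, rfl⟩
  · by_contra h
    exact hM.not_ge (le_normalizer_of_torus_le S hA (le_normalizer.trans hM.le) h)

end H4
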